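import Mathlib
import Cfsg.Agent.Lib.Helper44.FW.Defs

/-!
# FW (S3211): package [SWAP]
-/

set_option autoImplicit false

namespace Cfsg.Agent.Lib.Helper83.FW

open Cfsg.Agent.Lib.Helper44.FW

universe u

/-- [SWAP] if some conjugate `≠ j` of `j` commutes with `j`, then every involution `t₀ ≠ j`
of `C(j)` is swapped with `j` by some element. -/
theorem pkgSwap : PkgSwap.{u} := by
  intro G _ j t₀ hj hH ht₀C ht₀2 ht₀1 ht₀j hex
  obtain ⟨g, hgne, hgcomm⟩ := hex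
  have hj2 : j ^ 2 = 1 := by rw [← hj]; exact pow_orderOf_eq_one j
  have hj1 : j ≠ 1 := by
    intro h
    rw [h, orderOf_one] at hj
    exact absurd hj (by norm_num)
  have hjj : j * j = 1 := by rw [← pow_two]; exact hj2
  have ht₀comm : t₀ * j = j * t₀ := Subgroup.mem_centralizer_singleton_iff.mp ht₀C
  have htC : g * j * g⁻¹ ∈ Subgroup.centralizer ({j} : Set G) :=
    Subgroup.mem_centralizer_singleton_iff.mpr hgcomm
  have ht2 : (g * j * g⁻¹) ^ 2 = 1 := by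
    rw [pow_two]
    calc g * j * g⁻¹ * (g * j * g⁻¹) = g * (j * j) * g⁻¹ := by group
      _ = 1 := by rw [hjj]; group
  have ht1 : g * j * g⁻¹ ≠ 1 := by
    intro h
    apply hj1
    have h' : j = g⁻¹ * (g * j * g⁻¹) * g := by group
    rw [h', h]
    group
  obtain ⟨c, hcC, hc⟩ := hH _ htC ht2 ht1 hgne t₀ ht₀C ht₀2 ht₀1 ht₀j
  have hg₁ : (c * g) * j * (c * g)⁻¹ = t₀ := by
    rw [← hc]
    group
  have hjeq : j = (c * g)⁻¹ * t₀ * (c * g) := by
    rw [← hg₁]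
    group
  have haC : (c * g)⁻¹ * j * (c * g) ∈ Subgroup.centralizer ({j} : Set G) := by
    rw [Subgroup.mem_centralizer_singleton_iff]
    have h1 : (c * g)⁻¹ * j * (c * g) * ((c * g)⁻¹ * t₀ * (c * g)) =
        (c * g)⁻¹ * t₀ * (c * g) * ((c * g)⁻¹ * j * (c * g)) := by
      calc (c * g)⁻¹ * j * (c * g) * ((c * g)⁻¹ * t₀ * (c * g))
          = (c * g)⁻¹ * (j * t₀) * (c * g) := by group
        _ = (c * g)⁻¹ * (t₀ * j) * (c * g) := by rw [ht₀comm]
        _ = _ := by group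
    rw [← hjeq] at h1
    exact h1
  have ha2 : ((c * g)⁻¹ * j * (c * g)) ^ 2 = 1 := by
    rw [pow_two]
    calc (c * g)⁻¹ * j * (c * g) * ((c * g)⁻¹ * j * (c * g)) = (c * g)⁻¹ * (j * j) * (c * g) := by
          group
      _ = 1 := by rw [hjj]; group
  have ha1 : (c * g)⁻¹ * j * (c * g) ≠ 1 := by
    intro h
    apply hj1
    have h' : j = (c * g) * ((c * g)⁻¹ * j * (c * g)) * (c * g)⁻¹ := by group
    rw [h', h]
    group
  have haj : (c * g)⁻¹ * j * (c * g) ≠ j := by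
    intro h
    apply ht₀j
    rw [← hg₁]
    have h' : (c * g) * j * (c * g)⁻¹ = (c * g) * ((c * g)⁻¹ * j * (c * g)) * (c * g)⁻¹ := by
      rw [h]
    rw [h']
    group
  obtain ⟨c', hc'C, hc'⟩ := hH t₀ ht₀C ht₀2 ht₀1 ht₀j _ haC ha2 ha1 haj
  have hc'comm : c' * j = j * c' := Subgroup.mem_centralizer_singleton_iff.mp hc'C
  refine ⟨c * g * c', ?_, ?_⟩
  · calc c * g * c' * j * (c * g * c')⁻¹ = (c * g) * (c' * j) * c'⁻¹ * (c * g)⁻¹ := by group
      _ = (c * g) * (j * c') * c'⁻¹ * (c * g)⁻¹ := by rw [hc'comm]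
      _ = (c * g) * j * (c * g)⁻¹ := by group
      _ = t₀ := hg₁
  · calc c * g * c' * t₀ * (c * g * c')⁻¹ = (c * g) * (c' * t₀ * c'⁻¹) * (c * g)⁻¹ := by group
      _ = (c * g) * ((c * g)⁻¹ * j * (c * g)) * (c * g)⁻¹ := by rw [hc']
      _ = j := by group

end Cfsg.Agent.Lib.Helper83.FW
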